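import Cfsg.Agent.H21.PAct
import Cfsg.Agent.H44.Cores

/-! Elementary facts on TI-subgroups and the exclusion of `A₇`. -/

set_option autoImplicit false

namespace Cfsg.Agent.H74.Tim

open Subgroup

variable {G : Type*} [Group G]

theorem a7_three (a : alternatingGroup (Fin 7)) (h2 : a * a = 1) (h1 : a ≠ 1) :
    ∃ h : alternatingGroup (Fin 7), h ^ 3 = 1 ∧ h ≠ 1 ∧ h * a = a * h := by
  have ho : orderOf (a : Equiv.Perm (Fin 7)) = 2 := by
    rw [Subgroup.orderOf_coe]; exact orderOf_eq_prime (by rw [pow_two, h2]) h1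
  obtain ⟨n, hn⟩ := Equiv.Perm.cycleType_prime_order (σ := (a : Equiv.Perm (Fin 7)))
    (by rw [ho]; exact Nat.prime_two)
  rw [ho] at hn
  have hs := Equiv.Perm.sum_cycleType_le (a : Equiv.Perm (Fin 7))
  have hsg := Equiv.Perm.sign_of_cycleType (a : Equiv.Perm (Fin 7))
  rw [Equiv.Perm.mem_alternatingGroup.mp a.2, hn] at hsg
  rw [hn] at hs
  simp only [Multiset.sum_replicate, smul_eq_mul, Fintype.card_fin, Multiset.card_replicate] at hs hsg
  have hn1 : n = 1 := by
    have : n ≤ 2 := by omega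
    interval_cases n
    · exact absurd hsg (by decide)
    · rfl
    · exact absurd hsg (by decide)
  subst hn1
  have hc : IsConj (Equiv.swap (0 : Fin 7) 1 * Equiv.swap 2 3) (a : Equiv.Perm (Fin 7)) := by
    rw [Equiv.Perm.isConj_iff_cycleType_eq, hn]; decide
  obtain ⟨g, hg⟩ := isConj_iff.mp hc
  set c : Equiv.Perm (Fin 7) := Equiv.swap 4 5 * Equiv.swap 5 6 with hcd
  refine ⟨⟨g * c * g⁻¹, ?_⟩, Subtype.ext ?_, fun e => ?_, Subtype.ext ?_⟩
  · rw [Equiv.Perm.mem_alternatingGroup]; simp [hcd]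
  · have : c ^ 3 = 1 := by decide
    simp [conj_pow, this]
  · have := congrArg Subtype.val e
    simp only [OneMemClass.coe_one, conj_eq_one_iff] at this
    exact absurd this (by decide)
  · have : c * (Equiv.swap (0 : Fin 7) 1 * Equiv.swap 2 3) =
        (Equiv.swap (0 : Fin 7) 1 * Equiv.swap 2 3) * c := by decide
    simp only [Subgroup.coe_mul, ← hg]
    calc _ = g * (c * (Equiv.swap (0 : Fin 7) 1 * Equiv.swap 2 3)) * g⁻¹ := by group
      _ = _ := by rw [this]; group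

theorem a7_false {A : Subgroup (alternatingGroup (Fin 7))} (hA1 : A ≠ ⊥) (h2 : ∀ a ∈ A, a * a = 1)
    (hn : ∀ a ∈ A, a ≠ 1 → ∀ g, g * a = a * g → g ∈ normalizer (A : Set (alternatingGroup (Fin 7))))
    (hc : ∀ g ∈ centralizer (A : Set (alternatingGroup (Fin 7))), g ^ 3 = 1 → g = 1) : False := by
  haveI : Fact (Nat.Prime 2) := ⟨Nat.prime_two⟩
  have hp : IsPGroup 2 A := fun x => ⟨1, Subtype.ext (by simpa [pow_two] using h2 x x.2)⟩
  have hcard : Nat.card (alternatingGroup (Fin 7)) = 2520 := by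
    rw [Nat.card_eq_fintype_card, card_alternatingGroup]; decide
  obtain ⟨n, hn'⟩ := hp.exists_card_eq
  have hd := A.card_subgroup_dvd_card
  rw [hn', hcard] at hd
  have hn3 : n ≤ 3 := by
    by_contra h
    exact absurd ((pow_dvd_pow 2 (by omega : 4 ≤ n)).trans hd) (by decide)
  by_cases h3 : n = 3
  · subst h3
    let S : Sylow 2 (alternatingGroup (Fin 7)) := Sylow.ofCard A (by
      rw [hn', hcard, show 2520 = 2 ^ 3 * 315 by norm_num, Nat.factorization_mul (by norm_num) (by norm_num),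
        Nat.Prime.factorization_pow Nat.prime_two]
      simp [Nat.factorization_eq_zero_of_not_dvd])
    let x : alternatingGroup (Fin 7) :=
      ⟨Equiv.swap 0 1 * Equiv.swap 1 2 * Equiv.swap 2 3 * Equiv.swap 4 5, by
        rw [Equiv.Perm.mem_alternatingGroup]; simp⟩
    have hx : IsPGroup 2 (zpowers x) := by
      refine IsPGroup.of_card (n := 2) ?_
      rw [Nat.card_zpowers]
      exact orderOf_eq_prime_pow (by decide) (by decide)
    obtain ⟨T, hT⟩ := hx.exists_le_sylow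
    obtain ⟨g, hg⟩ := MulAction.exists_smul_eq (alternatingGroup (Fin 7)) T S
    have : g * x * g⁻¹ ∈ (S : Subgroup _) := by
      rw [← hg]; exact ⟨x, hT (mem_zpowers x), rfl⟩
    have h4 := h2 _ this
    rw [show g * x * g⁻¹ * (g * x * g⁻¹) = g * (x * x) * g⁻¹ by group, conj_eq_one_iff] at h4
    exact absurd h4 (by decide)
  · obtain ⟨⟨a, ha⟩, ha1⟩ := ne_bot_iff_exists_ne_one.mp hA1
    have ha1' : a ≠ 1 := fun e => ha1 (Subtype.ext e)
    obtain ⟨h, hh3, hh1, hha⟩ := a7_three a (h2 a ha) ha1'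
    have hN := hn a ha ha1' h hha
    refine hh1 (hc h (fun b hb => ?_) hh3)
    by_contra hne
    have hb1 : h * b * h⁻¹ ∈ A := (mem_normalizer_iff.mp hN b).mp hb
    have hb2 : h * (h * b * h⁻¹) * h⁻¹ ∈ A := (mem_normalizer_iff.mp hN _).mp hb1
    have hf : ∀ y, h * y * h⁻¹ = y → y * h = h * y := fun y e =>
      (mul_inv_eq_iff_eq_mul.mp e).symm
    have e1 : h * b * h⁻¹ ≠ b := fun e => hne (hf b e)
    have e2 : h * (h * b * h⁻¹) * h⁻¹ ≠ h * b * h⁻¹ := fun e => e1 (by simpa using e)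
    have e3 : h * (h * b * h⁻¹) * h⁻¹ ≠ b := fun e => e1 (by
      calc h * b * h⁻¹ = h * (h * (h * b * h⁻¹) * h⁻¹) * h⁻¹ := by rw [e]
        _ = h ^ 3 * b * (h ^ 3)⁻¹ := by simp only [pow_succ, pow_zero]; group
        _ = b := by rw [hh3]; group)
    have fa : h * a * h⁻¹ = a := by rw [hha]; group
    have fx : ∀ y, (y = 1 ∨ y = a) → h * y * h⁻¹ = y := by
      rintro y (rfl | rfl)
      · group
      · exact fa
    have n1 : ¬ (b = 1 ∨ b = a) := fun e => e1 (fx _ e)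
    have n2 : ¬ (h * b * h⁻¹ = 1 ∨ h * b * h⁻¹ = a) := fun e => e2 (fx _ e)
    have n3 : ¬ (h * (h * b * h⁻¹) * h⁻¹ = 1 ∨ h * (h * b * h⁻¹) * h⁻¹ = a) := fun e => e3 (by
      have := fx _ e
      calc _ = h * (h * (h * b * h⁻¹) * h⁻¹) * h⁻¹ := this.symm
        _ = h ^ 3 * b * (h ^ 3)⁻¹ := by simp only [pow_succ, pow_zero]; group
        _ = b := by rw [hh3]; group)
    push Not at n1 n2 n3
    classical
    have hsub : ({1, a, b, h * b * h⁻¹, h * (h * b * h⁻¹) * h⁻¹} : Finset _).card ≤ Nat.card A := by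
      rw [← Set.ncard_coe_finset, show Nat.card A = (A : Set (alternatingGroup (Fin 7))).ncard from rfl]
      refine Set.ncard_le_ncard ?_
      intro y hy
      simp only [Finset.coe_insert, Finset.coe_singleton, Set.mem_insert_iff, Set.mem_singleton_iff] at hy
      rcases hy with rfl | rfl | rfl | rfl | rfl
      exacts [A.one_mem, ha, hb, hb1, hb2]
    rw [Finset.card_insert_of_notMem (by simp [ha1'.symm, n1.1.symm, n2.1.symm, n3.1.symm]),
      Finset.card_insert_of_notMem (by simp [n1.2.symm, n2.2.symm, n3.2.symm]),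
      Finset.card_insert_of_notMem (by simp [e1.symm, e3.symm]),
      Finset.card_pair e2.symm, hn'] at hsub
    have : 2 ^ n ≤ 2 ^ 2 := Nat.pow_le_pow_right (by norm_num) (by omega)
    omega

/-- `Ω₁` of an abelian subgroup. -/
def om (Q : Subgroup G) (hc : ∀ a ∈ Q, ∀ b ∈ Q, a * b = b * a) : Subgroup G where
  carrier := {x | x ∈ Q ∧ x * x = 1}
  one_mem' := ⟨Q.one_mem, mul_one 1⟩
  mul_mem' := fun {a b} ha hb => ⟨Q.mul_mem ha.1 hb.1, by
    calc a * b * (a * b) = a * (b * a) * b := by group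
      _ = a * a * (b * b) := by rw [← hc a ha.1 b hb.1]; group
      _ = 1 := by rw [ha.2, hb.2, mul_one]⟩
  inv_mem' := fun {a} ha => ⟨Q.inv_mem ha.1, by rw [← mul_inv_rev, ha.2, inv_one]⟩

theorem cent_of_odd {Q : Subgroup G} (hc : ∀ a ∈ Q, ∀ b ∈ Q, a * b = b * a) {x : G}
    (hx : x ∈ normalizer (Q : Set G)) {n : ℕ} (hn : Odd n) (hxn : x ^ n = 1)
    (h : ∀ a ∈ Q, a * a = 1 → x * a = a * x) :
    ∀ k : ℕ, ∀ u ∈ Q, u ^ 2 ^ k = 1 → x * u = u * x := by
  intro k
  induction k with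
  | zero => intro u _ hu; rw [pow_zero, pow_one] at hu; rw [hu]; group
  | succ k ih =>
    intro u hu huk
    have h1 := ih (u * u) (Q.mul_mem hu hu) (by rw [← pow_two, ← pow_mul, ← pow_succ']; exact huk)
    have hv : x * u * x⁻¹ ∈ Q := (mem_normalizer_iff.mp hx u).mp hu
    set d := u⁻¹ * (x * u * x⁻¹) with hd
    have hdQ : d ∈ Q := Q.mul_mem (Q.inv_mem hu) hv
    have hdd : d * d = 1 := by
      calc d * d = u⁻¹ * ((x * u * x⁻¹) * u⁻¹) * (x * u * x⁻¹) := by rw [hd]; group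
        _ = u⁻¹ * u⁻¹ * (x * (u * u) * x⁻¹) := by rw [hc _ hv _ (Q.inv_mem hu)]; group
        _ = 1 := by rw [h1]; group
    have hxd := h d hdQ hdd
    have key : ∀ j : ℕ, x ^ j * u * (x ^ j)⁻¹ = u * d ^ j := by
      intro j
      induction j with
      | zero => simp
      | succ j ihj =>
        have : x * d ^ j = d ^ j * x := (Commute.pow_right hxd j).eq
        calc x ^ (j + 1) * u * (x ^ (j + 1))⁻¹ = x * (x ^ j * u * (x ^ j)⁻¹) * x⁻¹ := by
              rw [pow_succ']; group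
          _ = x * u * x⁻¹ * (x * d ^ j * x⁻¹) := by rw [ihj]; group
          _ = u * (u⁻¹ * (x * u * x⁻¹) * d ^ j) := by rw [this]; group
          _ = u * d ^ (j + 1) := by rw [pow_succ']
    have h2 := key n
    obtain ⟨m, rfl⟩ := hn
    rw [hxn, pow_succ, pow_mul, pow_two, hdd, one_pow, one_mul, one_mul, inv_one, mul_one] at h2
    have h3 : d = 1 := by simpa using h2
    rw [hd, inv_mul_eq_one] at h3
    exact mul_inv_eq_iff_eq_mul.mp h3.symm

/-- An elementary abelian TI-subgroup normalizing another of the same order centralizes it. -/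
theorem cent_of_ti [Finite G] {A P : Subgroup G} (hA : ∀ a ∈ A, ∀ b ∈ A, a * b = b * a)
    (hA2 : ∀ y ∈ A, y * y = 1) (hP2 : ∀ y ∈ P, y * y = 1)
    (hP : ∀ y ∈ P, y ≠ 1 → ∀ g, g * y = y * g → g ∈ normalizer (P : Set G)) (hAP : A ⊓ P = ⊥)
    (hn : P ≤ normalizer (A : Set G)) (hcard : Nat.card A ≤ Nat.card P) :
    ∀ u ∈ A, ∀ y ∈ P, y * u = u * y := by
  have h1 : ∀ c ∈ A, ∀ y ∈ P, y ≠ 1 → c * y = y * c → ∀ y' ∈ P, y' * c = c * y' := by
    intro c hc y hy hy1 e y' hy'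
    have m1 : y' * c * y'⁻¹ * c⁻¹ ∈ A :=
      A.mul_mem ((mem_normalizer_iff.mp (hn hy') c).mp hc) (A.inv_mem hc)
    have m2 : y' * c * y'⁻¹ * c⁻¹ ∈ P := by
      rw [show y' * c * y'⁻¹ * c⁻¹ = y' * (c * y'⁻¹ * c⁻¹) by group]
      exact P.mul_mem hy' ((mem_normalizer_iff.mp (hP y hy hy1 c e) _).mp (P.inv_mem hy'))
    have : y' * c * y'⁻¹ * c⁻¹ = 1 := mem_bot.mp (hAP ▸ mem_inf.mpr ⟨m1, m2⟩)
    rw [mul_inv_eq_one, mul_inv_eq_iff_eq_mul] at this
    exact this
  intro u hu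
  by_contra hne
  let H : Subgroup G := A ⊓ centralizer (P : Set G)
  have hH : H < A := lt_of_le_of_ne inf_le_left fun e => hne fun y hy =>
    (show u ∈ H from e ▸ hu).2 y hy
  have hm : ∀ y ∈ P, u * (y * u * y⁻¹) ∈ H := fun y hy => by
    have hv : y * u * y⁻¹ ∈ A := (mem_normalizer_iff.mp (hn hy) u).mp hu
    refine ⟨A.mul_mem hu hv, fun y' hy' => ?_⟩
    by_cases e : y = 1
    · subst e
      simp [hA2 u hu]
    · refine h1 _ (A.mul_mem hu hv) y hy e ?_ y' hy'
      have hi : y⁻¹ = y := inv_eq_of_mul_eq_one_right (hP2 y hy)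
      calc u * (y * u * y⁻¹) * y = u * y * u := by group
        _ = y * ((y⁻¹ * u * y) * u) := by group
        _ = _ := by rw [hi, show y * u * y = y * u * y⁻¹ by rw [hi], hA _ hv _ hu]
  have hinj : Function.Injective fun y : P => (⟨u * (y * u * (y : G)⁻¹), hm y y.2⟩ : H) := by
    intro y y' e
    have e1 : (y : G) * u * (y : G)⁻¹ = y' * u * (y' : G)⁻¹ := mul_left_cancel (congrArg Subtype.val e)
    by_contra hyy
    refine hne (h1 u hu ((y' : G)⁻¹ * y) (P.mul_mem (P.inv_mem y'.2) y.2)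
      (fun e2 => hyy (Subtype.ext (inv_mul_eq_one.mp e2).symm)) ?_)
    calc u * ((y' : G)⁻¹ * y) = (y' : G)⁻¹ * (y' * u * (y' : G)⁻¹) * y := by group
      _ = _ := by rw [← e1]; group
  have h2 := Nat.card_le_card_of_injective _ hinj
  have h3 : Nat.card H < Nat.card A := by
    refine lt_of_le_of_ne (card_le_of_le hH.le) fun e => hH.ne (eq_of_le_of_card_ge hH.le e.ge)
  omega

end Cfsg.Agent.H74.Tim
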