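import Cfsg.Agent.H74.TimB
import Cfsg.Agent.H46.Standard
import Cfsg.Prelude.Def_LocalStructure

/-! Abelian large subgroups: `Ω₁(Q)` is a weakly closed TI-subgroup. -/

set_option autoImplicit false

namespace Cfsg.Agent.H74.Tim

open Subgroup

variable {G : Type*} [Group G]

theorem mem_cj {A : Subgroup G} {g x : G} :
    x ∈ A.map (MulAut.conj g).toMonoidHom ↔ g⁻¹ * x * g ∈ A := by
  constructor
  · rintro ⟨y, hy, rfl⟩; simpa [mul_assoc] using hy
  · intro h; exact ⟨_, h, by simp [mul_assoc]⟩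

theorem cj_eq_of_mem {A : Subgroup G} {g : G} (h : g ∈ normalizer (A : Set G)) :
    A.map (MulAut.conj g).toMonoidHom = A := by
  ext x
  rw [mem_cj]
  simpa using ((mem_normalizer_iff.mp (inv_mem h)) x).symm

theorem fix2 [Finite G] {P A : Subgroup G} (hP : IsPGroup 2 P)
    (hA : IsPGroup 2 A) (hA1 : A ≠ ⊥) (h : P ≤ normalizer (A : Set G)) :
    ∃ a ∈ A, a ≠ 1 ∧ ∀ x ∈ P, x * a = a * x := by
  haveI : Fact (Nat.Prime 2) := ⟨Nat.prime_two⟩
  obtain ⟨⟨a, ha⟩, ha1⟩ := ne_bot_iff_exists_ne_one.mp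
    (H21.inf_centralizer_ne_bot_of_isPGroup hP A hA h hA1)
  exact ⟨a, ha.1, fun e => ha1 (Subtype.ext e), fun x hx => ha.2 x hx⟩

theorem norm_le_norm_cent (T : Subgroup G) :
    normalizer (T : Set G) ≤ normalizer (centralizer (T : Set G) : Set G) := by
  have key : ∀ g ∈ normalizer (T : Set G), ∀ x ∈ centralizer (T : Set G),
      g * x * g⁻¹ ∈ centralizer (T : Set G) := fun g hg x hx t ht => by
    have := hx _ ((mem_normalizer_iff.mp (inv_mem hg) t).mp ht)
    calc t * (g * x * g⁻¹) = g * (g⁻¹ * t * g⁻¹⁻¹ * x) * g⁻¹ := by group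
      _ = _ := by rw [this]; group
  intro g hg
  rw [mem_normalizer_iff]
  exact fun x => ⟨key g hg x, fun hx => by simpa [mul_assoc] using key _ (inv_mem hg) _ hx⟩

/-- An abelian large `2`-subgroup. -/
structure AbL (Q : Subgroup G) : Prop where
  p : IsPGroup 2 Q
  ne : Q ≠ ⊥
  comm : ∀ a ∈ Q, ∀ b ∈ Q, a * b = b * a
  large : IsLarge Q
  bullet : Q = largeBullet 2 Q

namespace AbL

variable [Finite G] {Q : Subgroup G} (h : AbL Q)
include h

omit [Finite G] in
theorem norm_le {U : Subgroup G} (hU : U ≤ Q) (h1 : U ≠ ⊥) :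
    normalizer (U : Set G) ≤ normalizer (Q : Set G) :=
  h.large.2 U (fun x hx y hy => h.comm y hy x (hU hx)) h1

omit [Finite G] in
theorem mem_norm {a g : G} (ha : a ∈ Q) (h1 : a ≠ 1) (e : g * a = a * g) :
    g ∈ normalizer (Q : Set G) := by
  refine h.norm_le (zpowers_le.mpr ha) (by simpa using h1) (centralizer_le_normalizer _ ?_)
  rintro _ ⟨k, rfl⟩
  exact (Commute.zpow_left e.symm k).eq

theorem two_le {T : Subgroup G} (hT : IsPGroup 2 T)
    (hc : ∀ z ∈ T, (∀ x ∈ T, x * z = z * x) → z ∈ Q) (h1 : T ≠ ⊥) :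
    normalizer (T : Set G) ≤ normalizer (Q : Set G) := by
  obtain ⟨z, hz, hz1, hzc⟩ := fix2 hT hT h1 le_normalizer
  refine le_trans ?_ (h.norm_le (U := T ⊓ centralizer (T : Set G)) (fun x hx => hc x hx.1 hx.2)
    (ne_bot_iff_exists_ne_one.mpr ⟨⟨z, hz, hzc⟩, fun e => hz1 (congrArg Subtype.val e)⟩))
  exact le_trans (le_inf le_rfl (norm_le_norm_cent _)) inf_normalizer_le_normalizer_inf

theorem wc {g : G} (hg : Q.map (MulAut.conj g).toMonoidHom ≤ normalizer (Q : Set G)) :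
    g ∈ normalizer (Q : Set G) := by
  haveI : Fact (Nat.Prime 2) := ⟨Nat.prime_two⟩
  obtain ⟨S, hS⟩ := (H44.isPGroup_sup_of_le_normalizer hg h.p (h.p.map _)).exists_le_sylow
  have key : ∀ T : Sylow 2 G, Q ≤ T → normalizer ((T : Subgroup G) : Set G) ≤ normalizer (Q : Set G) :=
    fun T hT => h.two_le T.isPGroup' (fun z _ hz => h.large.1 fun x hx => hz x (hT hx))
      fun e => h.ne (le_bot_iff.mp (e ▸ hT))
  have h1 : Q ≤ S := le_sup_left.trans hS
  have h2 : Q ≤ (g⁻¹ • S : Sylow 2 G) := fun x hx =>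
    ⟨g * x * g⁻¹, hS (mem_sup_right ⟨x, hx, rfl⟩), by simp [mul_assoc]⟩
  have h3 := le_normalizer.trans (key S h1)
  have h4 := le_normalizer.trans (key _ h2)
  obtain ⟨m, hm⟩ := MulAction.exists_smul_eq (normalizer (Q : Set G)) ((g⁻¹ • S).subtype h4)
    (S.subtype h3)
  rw [Sylow.smul_subtype] at hm
  have h5 : ((m : G) * g⁻¹) • S = S := by
    rw [mul_smul]; exact Sylow.subtype_injective hm
  have h6 := key S h1 (Sylow.smul_eq_iff_mem_normalizer.mp h5)
  simpa using mul_mem (inv_mem h6) m.2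

theorem ti {g x : G} (hx : x ∈ Q) (hx' : g⁻¹ * x * g ∈ Q) (h1 : x ≠ 1) :
    g ∈ normalizer (Q : Set G) :=
  h.wc fun y hy => h.mem_norm hx h1 (by
    have := h.comm _ (mem_cj.mp hy) _ hx'
    calc y * x = g * (g⁻¹ * y * g * (g⁻¹ * x * g)) * g⁻¹ := by group
      _ = x * y := by rw [this]; group)

omit [Finite G] in
theorem norm_om : normalizer (Q : Set G) ≤ normalizer (om Q h.comm : Set G) := fun g hg => by
  rw [mem_normalizer_iff] at hg ⊢
  intro x
  refine and_congr (hg x) ?_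
  rw [show g * x * g⁻¹ * (g * x * g⁻¹) = g * (x * x) * g⁻¹ by group, conj_eq_one_iff]

theorem om_ne : om Q h.comm ≠ ⊥ := by
  haveI : Fact (Nat.Prime 2) := ⟨Nat.prime_two⟩
  obtain ⟨n, hn⟩ := h.p.exists_card_eq
  have : 2 ∣ Nat.card Q := by
    rcases n with _ | n
    · exact absurd (card_eq_one.mp (by simpa using hn)) h.ne
    · exact hn ▸ Dvd.intro_left _ (pow_succ 2 n).symm
  obtain ⟨x, hx⟩ := exists_prime_orderOf_dvd_card' 2 this
  refine ne_bot_iff_exists_ne_one.mpr ⟨⟨x, x.2, ?_⟩, fun e => ?_⟩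
  · have := pow_orderOf_eq_one x
    rw [hx, pow_two] at this
    exact congrArg Subtype.val this
  · have : x = 1 := Subtype.ext (congrArg (fun y : om Q h.comm => (y : G)) e)
    simp [this] at hx

theorem cent_om : centralizer (om Q h.comm : Set G) ≤ Q := by
  have hM : centralizer (om Q h.comm : Set G) ≤ normalizer (Q : Set G) :=
    (centralizer_le_normalizer _).trans (h.norm_le (fun x hx => hx.1) h.om_ne)
  refine le_trans (H44.le_pCoreOf hM (h.norm_om.trans (norm_le_norm_cent _)) ?_)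
    h.bullet.ge
  intro x
  obtain ⟨k, m, hm, hkm⟩ := Nat.exists_eq_two_pow_mul_odd (orderOf_pos (x : G)).ne'
  have hy : ((x : G) ^ 2 ^ k) ^ m = 1 := by rw [← pow_mul, ← hkm, pow_orderOf_eq_one]
  have hq : (x : G) ^ 2 ^ k ∈ Q := h.large.1 fun u hu => by
    obtain ⟨j, hj⟩ := h.p ⟨u, hu⟩
    exact (cent_of_odd h.comm (pow_mem (hM x.2) _) hm hy
      (fun a ha ha2 => ((pow_mem x.2 (2 ^ k)) a ⟨ha, ha2⟩).symm) j u hu (congrArg Subtype.val hj)).symm
  obtain ⟨j, hj⟩ := h.p ⟨_, hq⟩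
  refine ⟨k + j, Subtype.ext ?_⟩
  have := congrArg Subtype.val hj
  simpa [pow_add, pow_mul] using this

theorem wc_om {g : G}
    (hg : (om Q h.comm).map (MulAut.conj g).toMonoidHom ≤ normalizer (Q : Set G)) :
    g ∈ normalizer (Q : Set G) := by
  by_contra hn
  have hb : om Q h.comm ⊓ (om Q h.comm).map (MulAut.conj g).toMonoidHom = ⊥ :=
    eq_bot_iff.mpr fun x hx => by_contra fun e => hn (h.ti hx.1.1 (mem_cj.mp hx.2).1 e)
  have hc := cent_of_ti (A := om Q h.comm) (fun a ha b hb => h.comm a ha.1 b hb.1) (fun y hy => hy.2)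
    (fun y hy => by
      have := (mem_cj.mp hy).2
      calc y * y = g * (g⁻¹ * y * g * (g⁻¹ * y * g)) * g⁻¹ := by group
        _ = 1 := by rw [this]; group)
    (fun y hy hy1 c e => by
      have h1 : g⁻¹ * c * g ∈ normalizer (om Q h.comm : Set G) :=
        h.norm_om (h.mem_norm (mem_cj.mp hy).1 (by simpa [← mul_assoc] using
          (conj_eq_one_iff (a := g⁻¹) (b := y)).not.mpr hy1) (by
          calc _ = g⁻¹ * (c * y) * g := by group
            _ = _ := by rw [e]; group))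
      rw [mem_normalizer_iff] at h1 ⊢
      intro x
      change x ∈ Subgroup.map _ _ ↔ _ ∈ Subgroup.map _ _
      rw [mem_cj, mem_cj]
      refine (h1 _).trans ?_
      rw [show g⁻¹ * c * g * (g⁻¹ * x * g) * (g⁻¹ * c * g)⁻¹ = g⁻¹ * (c * x * c⁻¹) * g by group])
    hb (hg.trans h.norm_om) (card_map_of_injective (MulAut.conj g).injective).ge
  obtain ⟨⟨a, ha⟩, ha1⟩ := ne_bot_iff_exists_ne_one.mp h.om_ne
  have hq : g * a * g⁻¹ ∈ Q := h.cent_om fun u hu => (hc u hu _ ⟨a, ha, rfl⟩).symm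
  exact hn (h.ti hq (by simpa [mul_assoc] using ha.1)
    (conj_eq_one_iff.not.mpr fun e => ha1 (Subtype.ext e)))

theorem two_le_om {T : Subgroup G} (hT : IsPGroup 2 T) (hA : om Q h.comm ≤ T) :
    T ≤ normalizer (Q : Set G) :=
  le_normalizer.trans (h.two_le hT (fun _ _ hz => h.cent_om fun x hx => hz x (hA hx))
    fun e => h.om_ne (le_bot_iff.mp (e ▸ hA)))

theorem odd_eq_bot {a b : G} (ha : a ∈ om Q h.comm) (hb : b ∈ om Q h.comm) (ha1 : a ≠ 1)
    (hb1 : b ≠ 1) (hab : a ≠ b) : pPrimeCore 2 G = ⊥ := by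
  have hco := H44.pPrimeCore_coprime (p := 2) (G := G)
  have key : ∀ c ∈ Q, c ≠ 1 → pPrimeCore 2 G ⊓ centralizer ({c} : Set G) ≤ normalizer (Q : Set G) :=
    fun c hc hc1 x hx => h.mem_norm hc hc1 (mem_centralizer_singleton_iff.mp hx.2)
  have hO : pPrimeCore 2 G ≤ normalizer (Q : Set G) :=
    H46.le_of_four (orderOf_eq_prime (by rw [pow_two, ha.2]) ha1)
      (orderOf_eq_prime (by rw [pow_two, hb.2]) hb1) hab (h.comm a ha.1 b hb.1)
      (fun e => absurd (Nat.Coprime.coprime_dvd_left e hco) (by decide))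
      (le_normalizer_of_normal (mem_top _)) (le_normalizer_of_normal (mem_top _))
      (key a ha.1 ha1) (key b hb.1 hb1) (key _ (mul_mem ha.1 hb.1) fun e => hab (by
        rw [← mul_left_inj b, e, hb.2]))
  have hd : Q ⊓ pPrimeCore 2 G = ⊥ := by
    obtain ⟨n, hn⟩ := haveI : Fact (Nat.Prime 2) := ⟨Nat.prime_two⟩; h.p.exists_card_eq
    exact disjoint_iff.mp (disjoint_of_coprime_natCard (hn ▸ hco.symm.pow_left n))
  rw [eq_bot_iff, ← hd]
  refine le_inf (fun x hx => h.large.1 fun u hu => ?_) le_rfl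
  have : x * u * x⁻¹ * u⁻¹ ∈ Q ⊓ pPrimeCore 2 G :=
    ⟨Q.mul_mem ((mem_normalizer_iff.mp (hO hx) u).mp hu) (Q.inv_mem hu), by
      rw [show x * u * x⁻¹ * u⁻¹ = x * (u * x⁻¹ * u⁻¹) by group]
      exact mul_mem hx (Normal.conj_mem inferInstance _ (inv_mem hx) u)⟩
  rw [hd, mem_bot, mul_inv_eq_one, mul_inv_eq_iff_eq_mul] at this
  exact this.symm

end AbL

end Cfsg.Agent.H74.Tim
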